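import Mathlib

/-!
# A nilpotent group with a fixed-point-free automorphism commuting pointwise and the `2`-Engel law has class two
-/

set_option autoImplicit false
set_option linter.unusedSectionVars false
set_option linter.style.haveILetI false

namespace CfsgLib.TICent

open scoped commutatorElement

universe u

/-- Second-centre membership. -/
def InZTwo {Q : Type u} [Group Q] (v : Q) : Prop := ∀ x : Q, ⁅v, x⁆ ∈ Subgroup.center Q

theorem class_two_core {Q : Type u} [Group Q] (φ : Q ≃* Q) (hc : ∀ x, Commute x (φ x))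
    (he : ∀ a b : Q, Commute (b * a * b⁻¹) a) (hs : Function.Surjective fun x => x⁻¹ * φ x)
    (h3 : ∀ a b : Q, InZTwo ⁅a, b⁆) : ∀ a b : Q, ⁅a, b⁆ ∈ Subgroup.center Q := by
  have cc : ∀ {c : Q}, c ∈ Subgroup.center Q → ∀ y : Q, y * c = c * y := fun hc' y => Subgroup.mem_center_iff.1 hc' y
  have cj : ∀ {c : Q}, c ∈ Subgroup.center Q → ∀ y : Q, y * c * y⁻¹ = c := fun hc' y => by
    rw [cc hc' y, mul_inv_cancel_right]
  have mulL : ∀ u v x : Q, InZTwo v → ⁅u * v, x⁆ = ⁅v, x⁆ * ⁅u, x⁆ := by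
    intro u v x hv
    rw [commutatorElement_mul_left_eq_conj_mul, cj (hv x)]
  have mulR : ∀ v x y : Q, InZTwo v → ⁅v, x * y⁆ = ⁅v, x⁆ * ⁅v, y⁆ := by
    intro v x y hv
    rw [commutatorElement_mul_right_eq_mul_conj, mul_assoc _ x, mul_assoc _ (x * _), cj (hv y)]
  have conjZ : ∀ a v x : Q, InZTwo v → ⁅a * v * a⁻¹, x⁆ = ⁅v, x⁆ := by
    intro a v x hv
    have h1 : ⁅a, v⁆ ∈ Subgroup.center Q := by
      rw [← commutatorElement_inv]; exact inv_mem (hv a)
    have h2 : ⁅⁅a, v⁆, x⁆ = 1 := commutatorElement_eq_one_iff_mul_comm.2 (cc h1 x).symm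
    rw [show a * v * a⁻¹ = ⁅a, v⁆ * v by rw [commutatorElement_def]; group, mulL _ _ _ hv, h2, mul_one]
  have zconj : ∀ {v : Q}, InZTwo v → ∀ a, InZTwo (a * v * a⁻¹) := fun {v} hv a x => by
    rw [conjZ a v x hv]; exact hv x
  have zphi : ∀ {v : Q}, InZTwo v → InZTwo (φ v) := by
    intro v hv x
    obtain ⟨y, rfl⟩ := φ.surjective x
    rw [Subgroup.mem_center_iff]
    intro g
    obtain ⟨g', rfl⟩ := φ.surjective g
    rw [show ⁅φ v, φ y⁆ = φ ⁅v, y⁆ by simp [commutatorElement_def], ← map_mul, ← map_mul, cc (hv y)]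
  -- the trilinear form
  obtain ⟨T, hT⟩ : ∃ T : Q → Q → Q → Q, ∀ a b x, T a b x = ⁅⁅a, b⁆, x⁆ := ⟨_, fun _ _ _ => rfl⟩
  have Tmem : ∀ a b x, T a b x ∈ Subgroup.center Q := fun a b x => by rw [hT]; exact h3 a b x
  have Tanti : ∀ a b x, T b a x = (T a b x)⁻¹ := by
    intro a b x
    refine eq_inv_of_mul_eq_one_left ?_
    rw [hT, hT, ← mulL _ _ _ (h3 b a), ← commutatorElement_inv b a, inv_mul_cancel, commutatorElement_one_left]
  have Tone : ∀ a a' b x, T (a * a') b x = T a b x * T a' b x := by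
    intro a a' b x
    rw [hT, hT, hT, commutatorElement_mul_left_eq_conj_mul, mulL _ _ _ (h3 a b), conjZ _ _ _ (h3 a' b)]
  have Ttwo : ∀ a b b' x, T a (b * b') x = T a b x * T a b' x := by
    intro a b b' x
    rw [Tanti (b * b') a x, Tone, mul_inv_rev, ← Tanti, ← Tanti]
    exact cc (Tmem _ _ _) _
  have Tthree : ∀ a b x x', T a b (x * x') = T a b x * T a b x' := fun a b x x' => by
    rw [hT, hT, hT]; exact mulR _ _ _ (h3 a b)
  have Teng : ∀ a b, T b a a = 1 := by
    intro a b
    rw [hT, commutatorElement_eq_one_iff_commute, commutatorElement_def]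
    exact ((he a b).mul_left (Commute.inv_left (Commute.refl a)))
  have Tflip : ∀ a b c, T b c a = (T b a c)⁻¹ := by
    intro a b c
    refine eq_inv_of_mul_eq_one_left ?_
    have h := Teng (a * c) b
    rw [Ttwo, Tthree, Tthree, Teng, Teng, one_mul, mul_one] at h
    rw [cc (Tmem b a c)]
    exact h
  have expand : ∀ a b : Q, (a * ⁅b, φ a⁆ * a⁻¹) * (φ a * ⁅a, φ b⁆ * (φ a)⁻¹) = 1 := by
    intro a b
    have h := commutatorElement_eq_one_iff_commute.2 (hc (a * b))
    have e1 : ⁅a, φ a⁆ = 1 := commutatorElement_eq_one_iff_commute.2 (hc a)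
    have e2 : ⁅b, φ b⁆ = 1 := commutatorElement_eq_one_iff_commute.2 (hc b)
    rw [map_mul, commutatorElement_mul_left_eq_conj_mul, commutatorElement_mul_right_eq_mul_conj b,
      commutatorElement_mul_right_eq_mul_conj a, e1, e2] at h
    simpa using h
  have Tlin : ∀ a b x, T (φ a) b x = T a (φ b) x := by
    intro a b x
    have h := congrArg (fun y => ⁅y, x⁆) (expand a b)
    simp only [mulL _ _ _ (zconj (h3 a (φ b)) (φ a)), conjZ _ _ _ (h3 b (φ a)), conjZ _ _ _ (h3 a (φ b)),
      commutatorElement_one_left, ← hT] at h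
    rw [Tanti b (φ a) x]
    exact (eq_inv_of_mul_eq_one_left h).symm
  have wlin : ∀ v x, InZTwo v → ⁅φ v, x⁆ = ⁅v, φ x⁆ := by
    intro v x hv
    have h := expand v x
    have h1 : ⁅x, φ v⁆ ∈ Subgroup.center Q := by
      rw [← commutatorElement_inv]; exact inv_mem (zphi hv x)
    rw [cj h1, cj (hv (φ x)), ← commutatorElement_inv (φ v) x, inv_mul_eq_one] at h
    exact h
  have chain : ∀ y b x, T (φ y) b x = T y b x := by
    intro y b x
    obtain ⟨a, rfl⟩ := φ.surjective y
    calc T (φ (φ a)) b x = T (φ a) (φ b) x := Tlin _ _ _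
      _ = T a b (φ x) := by
        rw [hT, hT, show ⁅φ a, φ b⁆ = φ ⁅a, b⁆ by simp [commutatorElement_def]]
        exact wlin _ _ (h3 a b)
      _ = (T a (φ x) b)⁻¹ := Tflip (φ x) a b
      _ = (T (φ a) x b)⁻¹ := by rw [Tlin a x b]
      _ = T (φ a) b x := (Tflip x (φ a) b).symm
  intro a b
  rw [Subgroup.mem_center_iff]
  intro x
  obtain ⟨y, rfl⟩ := hs a
  have h1 : T (1 : Q) b x = 1 := by rw [hT, commutatorElement_one_left, commutatorElement_one_left]
  have h2 : T (y⁻¹ * φ y) b x = 1 := by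
    rw [Tone, chain, ← Tone, inv_mul_cancel, h1]
  rw [hT] at h2
  exact (commutatorElement_eq_one_iff_mul_comm.1 h2).symm

/-- Class at most two. -/
theorem class_two : ∀ (n : ℕ) {Q : Type u} [Group Q] [Finite Q], Nat.card Q = n → Group.IsNilpotent Q →
    ∀ φ : Q ≃* Q, (∀ x, Commute x (φ x)) → (∀ a b : Q, Commute (b * a * b⁻¹) a) →
    (Function.Surjective fun x => x⁻¹ * φ x) → ∀ a b : Q, ⁅a, b⁆ ∈ Subgroup.center Q := by
  intro n
  induction n using Nat.strong_induction_on with
  | h n ih =>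
    intro Q _ _ hn hnil φ hc he hs
    rcases subsingleton_or_nontrivial Q with h | h
    · intro a b; rw [Subsingleton.elim ⁅a, b⁆ 1]; exact one_mem _
    haveI := hnil
    haveI : Nontrivial (Subgroup.center Q) := (Subgroup.nontrivial_iff_ne_bot _).2 (Group.IsNilpotent.center_ne_bot Q)
    have hmap : (Subgroup.center Q).map φ.toMonoidHom = Subgroup.center Q := by
      ext y
      constructor
      · rintro ⟨x, hx, rfl⟩
        refine Subgroup.mem_center_iff.2 fun g => ?_
        obtain ⟨g', rfl⟩ := φ.surjective g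
        show φ g' * φ x = φ x * φ g'
        rw [← map_mul, ← map_mul, Subgroup.mem_center_iff.1 hx g']
      · intro hy
        refine ⟨φ.symm y, Subgroup.mem_center_iff.2 fun g => φ.injective ?_, φ.apply_symm_apply y⟩
        rw [map_mul, map_mul, φ.apply_symm_apply, Subgroup.mem_center_iff.1 hy]
    have hlt : Nat.card (Q ⧸ Subgroup.center Q) < n := by
      subst hn
      rw [Subgroup.card_eq_card_quotient_mul_card_subgroup (Subgroup.center Q)]
      exact lt_mul_right Nat.card_pos Finite.one_lt_card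
    have hq := ih _ hlt rfl inferInstance (QuotientGroup.congr _ _ φ hmap) ?_ ?_ ?_
    · refine class_two_core φ hc he hs fun a b x => ?_
      rw [← QuotientGroup.eq_one_iff]
      have := hq (a : Q ⧸ Subgroup.center Q) b
      rw [Subgroup.mem_center_iff] at this
      show ((⁅⁅a, b⁆, x⁆ : Q) : Q ⧸ Subgroup.center Q) = 1
      rw [← QuotientGroup.mk'_apply, map_commutatorElement, map_commutatorElement,
        commutatorElement_eq_one_iff_mul_comm]
      exact (this _).symm
    · intro x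
      obtain ⟨x, rfl⟩ := QuotientGroup.mk_surjective x
      exact (hc x).map (QuotientGroup.mk' _)
    · intro a b
      obtain ⟨a, rfl⟩ := QuotientGroup.mk_surjective a
      obtain ⟨b, rfl⟩ := QuotientGroup.mk_surjective b
      exact (he a b).map (QuotientGroup.mk' _)
    · intro y
      obtain ⟨y, rfl⟩ := QuotientGroup.mk_surjective y
      obtain ⟨x, hx⟩ := hs y
      exact ⟨x, congrArg QuotientGroup.mk hx⟩

end CfsgLib.TICent
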