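import Cfsg.Agent.CA.TICent.Local

/-!
# The arithmetic of a noncommutative kernel
-/

set_option autoImplicit false
set_option linter.style.haveILetI false
set_option linter.unusedSectionVars false

namespace CfsgLib.TICent

open scoped commutatorElement

universe u

variable {G : Type u} [Group G] [Finite G]

theorem log_dvd {k j : ℕ} (hk : 0 < k) (h : 2 ^ k - 1 ∣ 2 ^ j - 1) : k ∣ j := by
  have h1 : (2 ^ j - 1).gcd (2 ^ k - 1) = 2 ^ k - 1 := Nat.gcd_eq_right h
  rw [Nat.pow_sub_one_gcd_pow_sub_one] at h1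
  have h2 : 2 ^ j.gcd k = 2 ^ k := by
    have := Nat.one_le_two_pow (n := j.gcd k)
    have := Nat.one_le_two_pow (n := k)
    omega
  exact (Nat.pow_right_injective (le_refl 2) h2) ▸ Nat.gcd_dvd_left j k

namespace Hyp

variable {A : Subgroup G} {z : G} (h : Hyp A z)
include h

/-- The commutators of `A` are central. -/
theorem comm_mem_center (a b : A) : ⁅a, b⁆ ∈ Subgroup.center A :=
  Subgroup.mem_center_iff.2 fun c => Subtype.ext (h.class_le_two a.2 b.2 c.1 c.2).eq

theorem commutator_le_center : commutator A ≤ Subgroup.center A := by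
  rw [commutator_def, Subgroup.commutator_le]
  exact fun a _ b _ => h.comm_mem_center a b

theorem br_mul (a b c : A) : ⁅a * b, c⁆ = ⁅a, c⁆ * ⁅b, c⁆ := by
  have h1 := Subgroup.mem_center_iff.1 (h.comm_mem_center b c)
  rw [commutatorElement_mul_left_eq_conj_mul, h1 a, mul_inv_cancel_right, ← h1]

/-- Commutation with a fixed element. -/
def br (b : A) : A →* A where
  toFun a := ⁅a, b⁆
  map_one' := commutatorElement_one_left b
  map_mul' a a' := h.br_mul a a' b

theorem br_apply (a b : A) : h.br b a = ⁅a, b⁆ := rfl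

theorem br_right (a b c : A) : ⁅a, b * c⁆ = ⁅a, b⁆ * ⁅a, c⁆ := by
  rw [← inv_inj, commutatorElement_inv, h.br_mul, mul_inv_rev, commutatorElement_inv, commutatorElement_inv]
  exact (Subgroup.mem_center_iff.1 (h.comm_mem_center b a) _).symm

theorem br_central {a : A} (ha : a ∈ Subgroup.center A) (b : A) : ⁅a, b⁆ = 1 :=
  commutatorElement_eq_one_iff_mul_comm.2 (Subgroup.mem_center_iff.1 ha b).symm

/-- Conjugation by an element of the normaliser. -/
noncomputable abbrev act (_h : Hyp A z) (d : NA A) : A ≃* A := A.normalizerMonoidHom d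

theorem comm_act {a b : A} (d : NA A) (hab : Commute a b) : Commute (h.act d a) b :=
  Subtype.ext (h.comm a b d a.2 b.2 d.2 (congrArg Subtype.val hab.eq : _)).eq

theorem act_swap (d : NA A) (a b : A) : ⁅h.act d a, b⁆ = ⁅a, h.act d b⁆ := by
  have h0 : ⁅h.act d (a * b), a * b⁆ = 1 :=
    commutatorElement_eq_one_iff_commute.2 (h.comm_act d (Commute.refl _))
  rw [map_mul, h.br_mul, h.br_right, h.br_right,
    commutatorElement_eq_one_iff_commute.2 (h.comm_act d (Commute.refl a)),
    commutatorElement_eq_one_iff_commute.2 (h.comm_act d (Commute.refl b)), one_mul, mul_one,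
    mul_eq_one_iff_eq_inv, commutatorElement_inv] at h0
  exact h0

theorem act_commutator {a : A} (d : NA A) (ha : a ∈ commutator A) : h.act d a ∈ commutator A := by
  have h1 : (commutator A).map (h.act d).toMonoidHom ≤ commutator A := by
    rw [commutator_def, Subgroup.map_commutator]
    exact Subgroup.commutator_mono le_top le_top
  exact h1 ⟨a, ha, rfl⟩

/-- An invariant subgroup. -/
def Inv (_h : Hyp A z) (X : Subgroup A) : Prop := ∀ d : NA A, ∀ a ∈ X, _h.act d a ∈ X

theorem inv_commutator : h.Inv (commutator A) := fun d _ ha => h.act_commutator d ha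

theorem inv_dvd {X : Subgroup A} (hX : h.Inv X) : mm A ∣ Nat.card X - 1 := by
  have := h.mm_dvd (X := X.map A.subtype) (Subgroup.map_subtype_le X) ?_
  · rwa [Subgroup.card_map_of_injective A.subtype_injective] at this
  · rintro d hd _ ⟨a, ha, rfl⟩
    exact ⟨_, hX ⟨d, hd⟩ a ha, rfl⟩

theorem inv_modEq {X : Subgroup A} (hX : h.Inv X) : Nat.card X ≡ 1 [MOD mm A] :=
  (Nat.modEq_iff_dvd' Nat.card_pos).2 (h.inv_dvd hX) |>.symm

/-- The index of one invariant subgroup in another is `1` modulo `m`. -/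
theorem ratio_dvd {X Y : Subgroup A} (hX : h.Inv X) (hY : h.Inv Y) {r : ℕ}
    (hr : Nat.card Y = Nat.card X * r) (hr0 : 0 < r) : mm A ∣ r - 1 := by
  refine (Nat.modEq_iff_dvd' hr0).1 ?_
  calc 1 ≡ Nat.card Y [MOD mm A] := (h.inv_modEq hY).symm
    _ = Nat.card X * r := hr
    _ ≡ 1 * r [MOD mm A] := (h.inv_modEq hX).mul_right r
    _ = r := one_mul r

theorem mem_commutator_iff (a : A) : a ∈ commutator A ↔ Abelianization.of a = 1 :=
  (QuotientGroup.eq_one_iff a).symm

/-- The elements whose image in the abelianisation is killed by `n`. -/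
def sqLayer (_h : Hyp A z) (n : ℕ) : Subgroup A :=
  ((powMonoidHom n : Abelianization A →* Abelianization A).ker).comap Abelianization.of

theorem mem_sqLayer {n : ℕ} {a : A} : a ∈ h.sqLayer n ↔ a ^ n ∈ commutator A := by
  rw [h.mem_commutator_iff, map_pow]; rfl

theorem inv_sqLayer (n : ℕ) : h.Inv (h.sqLayer n) := fun d a ha => by
  rw [h.mem_sqLayer] at ha ⊢
  rw [← map_pow]
  exact h.act_commutator d ha

/-- The preimage of the `2`-part of the abelianisation. -/
def Two (_h : Hyp A z) : Subgroup A :=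
  (_root_.CommGroup.primaryComponent (Abelianization A) 2).comap Abelianization.of

theorem mem_Two {a : A} : a ∈ h.Two ↔ ∃ k : ℕ, a ^ 2 ^ k ∈ commutator A := by
  rw [Two, Subgroup.mem_comap, _root_.CommGroup.mem_primaryComponent]
  exact exists_congr fun k => by rw [h.mem_commutator_iff, map_pow]

theorem inv_Two : h.Inv h.Two := fun d a ha => by
  rw [h.mem_Two] at ha ⊢
  exact ha.imp fun k hk => by rw [← map_pow]; exact h.act_commutator d hk

theorem commutator_le_Two : commutator A ≤ h.Two := fun a ha => h.mem_Two.2 ⟨0, by simpa using ha⟩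

theorem inv_sup {X Y : Subgroup A} (hX : h.Inv X) (hY : h.Inv Y) : h.Inv (X ⊔ Y) := by
  intro d a ha
  have hle : (X ⊔ Y).map (h.act d).toMonoidHom ≤ X ⊔ Y := by
    rw [Subgroup.map_sup]
    exact sup_le_sup (fun _ ⟨x, hx, e⟩ => e ▸ hX d x hx) (fun _ ⟨x, hx, e⟩ => e ▸ hY d x hx)
  exact hle ⟨a, ha, rfl⟩

theorem inv_inf {X Y : Subgroup A} (hX : h.Inv X) (hY : h.Inv Y) : h.Inv (X ⊓ Y) :=
  fun d a ha => ⟨hX d a ha.1, hY d a ha.2⟩

/-- The invariant subgroup generated by an element and the commutators. -/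
noncomputable def orbSub (_h : Hyp A z) (u : A) : Subgroup A :=
  Subgroup.closure (Set.range fun d : NA A => _h.act d u) ⊔ commutator A

theorem mem_orbSub (u : A) : u ∈ h.orbSub u :=
  Subgroup.mem_sup_left (Subgroup.subset_closure ⟨1, by simp⟩)

theorem commutator_le_orbSub (u : A) : commutator A ≤ h.orbSub u := le_sup_right

theorem inv_orbSub (u : A) : h.Inv (h.orbSub u) := by
  refine h.inv_sup ?_ h.inv_commutator
  intro d a ha
  have hle : (Subgroup.closure (Set.range fun e : NA A => h.act e u)).map (h.act d).toMonoidHom ≤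
      Subgroup.closure (Set.range fun e : NA A => h.act e u) := by
    rw [MonoidHom.map_closure, Subgroup.closure_le]
    rintro _ ⟨_, ⟨e, rfl⟩, rfl⟩
    refine Subgroup.subset_closure ⟨d * e, ?_⟩
    show A.normalizerMonoidHom (d * e) u = _
    rw [map_mul]; rfl
  exact hle ⟨a, ha, rfl⟩

theorem orbSub_comm (u : A) : ∀ a ∈ h.orbSub u, ∀ b ∈ h.orbSub u, Commute a b := by
  set O := Set.range fun d : NA A => h.act d u with hO
  have h1 : ∀ a ∈ O, ∀ b ∈ O, Commute a b := by
    rintro _ ⟨d, rfl⟩ _ ⟨e, rfl⟩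
    exact h.comm_act d (h.comm_act e (Commute.refl u)).symm
  have hc : commutator A ≤ Subgroup.center A := h.commutator_le_center
  have h2 : h.orbSub u ≤ Subgroup.centralizer O := by
    refine sup_le ((Subgroup.closure_le _).2 fun a ha => ?_) fun a ha => ?_
    · exact Subgroup.mem_centralizer_iff.2 fun b hb => (h1 b hb a ha).eq
    · exact Subgroup.mem_centralizer_iff.2 fun b _ => Subgroup.mem_center_iff.1 (hc ha) b
  have h3 : h.orbSub u ≤ Subgroup.centralizer (h.orbSub u : Set A) := by
    refine sup_le ((Subgroup.closure_le _).2 fun a ha => ?_) fun a ha => ?_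
    · exact Subgroup.mem_centralizer_iff.2 fun b hb => (Subgroup.mem_centralizer_iff.1 (h2 hb) a ha).symm
    · exact Subgroup.mem_centralizer_iff.2 fun b _ => Subgroup.mem_center_iff.1 (hc ha) b
  exact fun a ha b hb => Subgroup.mem_centralizer_iff.1 (h3 hb) a ha

theorem card_invol : Nat.card {a : A // a ^ 2 = 1} = mm A + 1 := by
  classical
  haveI := Fintype.ofFinite A
  have h1 : Nat.card {a : A // a ^ 2 = 1 ∧ a ≠ 1} = mm A := by
    rw [← h.card_inv]
    refine Nat.card_congr
      { toFun := fun a => ⟨a.1.1, ?_, Subgroup.le_normalizer a.1.2⟩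
        invFun := fun t => ⟨⟨t.1, (h.zcent t.1 t.2.1 t.2.2).1⟩, Subtype.ext ?_, fun e => ?_⟩
        left_inv := fun _ => rfl
        right_inv := fun _ => rfl }
    · rw [Subgroup.orderOf_coe]
      exact orderOf_eq_prime a.2.1 a.2.2
    · show t.1 ^ 2 = 1
      have e := pow_orderOf_eq_one t.1
      rwa [t.2.1] at e
    · have e' : t.1 = 1 := congrArg Subtype.val e
      have := t.2.1
      rw [e', orderOf_one] at this
      omega
  rw [← h1, Nat.card_eq_fintype_card, Nat.card_eq_fintype_card, Fintype.card_subtype, Fintype.card_subtype]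
  have : Finset.univ.filter (fun a : A => a ^ 2 = 1) =
      insert 1 (Finset.univ.filter fun a : A => a ^ 2 = 1 ∧ a ≠ 1) := by
    ext a
    by_cases ha : a = 1 <;> simp [ha]
  rw [this, Finset.card_insert_of_notMem (by simp)]

/-- The involutions with the identity. -/
def Omg (_h : Hyp A z) : Subgroup A where
  carrier := {a | a ^ 2 = 1}
  one_mem' := one_pow 2
  mul_mem' := by
    intro a b (ha : a ^ 2 = 1) (hb : b ^ 2 = 1)
    have hc : Commute a b := by
      rcases eq_or_ne b 1 with rfl | hb1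
      · exact Commute.one_right a
      · have ho : orderOf (b : G) = 2 := by rw [Subgroup.orderOf_coe]; exact orderOf_eq_prime hb hb1
        exact Subtype.ext ((_h.zcent _ ho (Subgroup.le_normalizer b.2)).2 _ a.2).eq
    show (a * b) ^ 2 = 1
    rw [hc.mul_pow, ha, hb, one_mul]
  inv_mem' := by
    intro a (ha : a ^ 2 = 1)
    show a⁻¹ ^ 2 = 1
    rw [inv_pow, ha, inv_one]

theorem Omg_le_center : h.Omg ≤ Subgroup.center A := fun b (hb : b ^ 2 = 1) => by
  rcases eq_or_ne b 1 with rfl | hb1
  · exact one_mem _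
  have ho : orderOf (b : G) = 2 := by rw [Subgroup.orderOf_coe]; exact orderOf_eq_prime hb hb1
  exact Subgroup.mem_center_iff.2 fun a => Subtype.ext ((h.zcent _ ho (Subgroup.le_normalizer b.2)).2 _ a.2).eq

theorem card_Omg : Nat.card h.Omg = mm A + 1 := h.card_invol

/-- `m + 1` is a power of two. -/
theorem exists_log : ∃ k, 0 < k ∧ mm A + 1 = 2 ^ k := by
  haveI : Fact (Nat.Prime 2) := ⟨Nat.prime_two⟩
  obtain ⟨k, hk⟩ := (show IsPGroup 2 h.Omg from fun a => ⟨1, Subtype.ext (by rw [pow_one]; exact a.2)⟩).exists_card_eq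
  rw [h.card_Omg] at hk
  refine ⟨k, Nat.pos_of_ne_zero fun e => ?_, hk⟩
  have := h.one_lt_mm
  rw [e, pow_zero] at hk
  omega

/-- A subgroup of `2`-elements modulo the commutators has the index of a power of `m + 1`. -/
theorem two_ratio {X : Subgroup A} (hX : h.Inv X) (hle : commutator A ≤ X) (h2 : X ≤ h.Two) :
    ∃ i, Nat.card X = Nat.card (commutator A) * (mm A + 1) ^ i := by
  haveI : Fact (Nat.Prime 2) := ⟨Nat.prime_two⟩
  obtain ⟨k, hk0, hk⟩ := h.exists_log
  have hp : IsPGroup 2 (X ⧸ (commutator A).subgroupOf X) := by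
    intro q
    obtain ⟨a, rfl⟩ := QuotientGroup.mk_surjective q
    obtain ⟨j, hj⟩ := h.mem_Two.1 (h2 a.2)
    exact ⟨j, by rw [← QuotientGroup.mk_pow, QuotientGroup.eq_one_iff]; exact hj⟩
  obtain ⟨j, hj⟩ := hp.exists_card_eq
  have hc : Nat.card X = Nat.card (commutator A) * 2 ^ j := by
    rw [← hj, Subgroup.card_eq_card_quotient_mul_card_subgroup ((commutator A).subgroupOf X),
      Nat.card_congr (Subgroup.subgroupOfEquivOfLe hle).toEquiv, mul_comm]
  have hd := h.ratio_dvd h.inv_commutator hX hc (by positivity)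
  rw [show mm A = 2 ^ k - 1 by omega] at hd
  obtain ⟨i, rfl⟩ := log_dvd hk0 hd
  exact ⟨i, by rw [hc, hk, ← pow_mul]⟩

theorem pow_two_mem_commutator {a : A} : a ∈ h.sqLayer 2 ↔ a ^ 2 ∈ commutator A := h.mem_sqLayer

/-- The arithmetic of the abelianisation of a noncommutative kernel. -/
theorem arith (hna : ¬ ∀ a b : A, Commute a b) {v zi : ℕ} (hv : v = Nat.card (Abelianization A))
    (hzi : zi = (Subgroup.center A).index) :
    zi ≤ v ∧ (mm A + 1) ^ 2 ≤ v ∧ 2 ∣ v ∧ ∀ n k : ℕ, n * mm A + 1 = v → k ^ 2 ≤ zi →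
      2 * k + 2 ≤ n ∨ (v = (mm A + 1) ^ 2 ∧ ∃ j, Nat.card A = 2 ^ j) := by
  subst hv hzi
  haveI : Fact (Nat.Prime 2) := ⟨Nat.prime_two⟩
  have hCC := h.commutator_le_center
  have hzv : (Subgroup.center A).index ≤ Nat.card (Abelianization A) :=
    Nat.le_of_dvd Nat.card_pos (Subgroup.index_dvd_of_le hCC)
  have h3 := h.three_le_mm
  -- the two parts
  obtain ⟨i, hi⟩ := h.two_ratio h.inv_Two h.commutator_le_Two le_rfl
  obtain ⟨w, hw⟩ : ∃ w, w = h.Two.index := ⟨_, rfl⟩
  have hprod : Nat.card (Abelianization A) = (mm A + 1) ^ i * w := by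
    have e1 := Subgroup.card_mul_index h.Two
    have e2 := Subgroup.card_mul_index (commutator A)
    rw [hi, mul_assoc] at e1
    rw [hw]
    exact Nat.eq_of_mul_eq_mul_left Nat.card_pos (e2.trans e1.symm)
  have hwdvd : mm A ∣ w - 1 := by
    refine h.ratio_dvd h.inv_Two (show h.Inv ⊤ from fun _ _ _ => trivial) ?_ ?_
    · rw [Subgroup.card_top, hw, Subgroup.card_mul_index]
    · rw [hw]; exact Nat.pos_of_ne_zero Subgroup.index_ne_zero_of_finite
  haveI hTn : h.Two.Normal := inferInstanceAs (Subgroup.comap _ _).Normal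
  have hwodd : Odd w := by
    rw [hw, ← Nat.not_even_iff_odd, even_iff_two_dvd, Subgroup.index]
    intro h2
    obtain ⟨q, hq⟩ := exists_prime_orderOf_dvd_card' 2 h2
    obtain ⟨a, rfl⟩ := QuotientGroup.mk_surjective q
    have ha : a ^ 2 ∈ h.Two := by
      rw [← QuotientGroup.eq_one_iff, QuotientGroup.mk_pow, ← hq]; exact pow_orderOf_eq_one _
    obtain ⟨j, hj⟩ := h.mem_Two.1 ha
    have haT : a ∈ h.Two := h.mem_Two.2 ⟨j + 1, by rwa [pow_succ', pow_mul]⟩
    rw [(QuotientGroup.eq_one_iff a).2 haT, orderOf_one] at hq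
    omega
  have hwlarge : w = 1 ∨ 2 * mm A + 1 ≤ w := by
    obtain ⟨c, hc⟩ := hwdvd
    have hw0 : 0 < w := hwodd.pos
    rcases c with _ | _ | c
    · left; omega
    · exfalso
      obtain ⟨r, hr⟩ := hwodd
      obtain ⟨r', hr'⟩ := h.odd_mm
      omega
    · right
      have : mm A * (c + 1 + 1) ≥ mm A * 2 := Nat.mul_le_mul_left _ (by omega)
      omega
  -- the commutators have odd order when the abelianisation has
  have hv2 : 2 ∣ Nat.card (Abelianization A) := by
    by_contra hodd
    have hcm : ∀ c ∈ commutator A, c ^ Nat.card (Abelianization A) = 1 := by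
      let P : Subgroup A :=
        { carrier := {c | c ∈ Subgroup.center A ∧ c ^ Nat.card (Abelianization A) = 1}
          one_mem' := ⟨one_mem _, one_pow _⟩
          mul_mem' := fun {a b} ha hb => ⟨mul_mem ha.1 hb.1, by
            rw [(show Commute a b from Subgroup.mem_center_iff.1 hb.1 a).mul_pow, ha.2, hb.2, one_mul]⟩
          inv_mem' := fun {a} ha => ⟨inv_mem ha.1, by rw [inv_pow, ha.2, inv_one]⟩ }
      have hle : commutator A ≤ P := by
        rw [commutator_def, Subgroup.commutator_le]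
        refine fun a _ b _ => ⟨h.comm_mem_center a b, ?_⟩
        rw [← h.br_apply, ← map_pow, h.br_apply]
        refine h.br_central (hCC ?_) b
        rw [h.mem_commutator_iff, map_pow, pow_card_eq_one']
      exact fun c hc => (hle hc).2
    have hzA : (⟨z, h.hzA⟩ : A) ∈ commutator A := by
      rw [h.mem_commutator_iff, ← orderOf_eq_one_iff]
      refine Nat.eq_one_of_dvd_coprimes (Nat.prime_two.coprime_iff_not_dvd.2 hodd) ?_ (orderOf_dvd_natCard _)
      refine (orderOf_map_dvd _ _).trans ?_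
      rw [Subgroup.orderOf_mk, h.hz]
    have h1 := orderOf_dvd_of_pow_eq_one (hcm _ hzA)
    rw [Subgroup.orderOf_mk, h.hz] at h1
    exact hodd h1
  have hi1 : i ≠ 0 := fun e => by
    rw [hprod, e, pow_zero, one_mul] at hv2
    exact hwodd.not_two_dvd_nat hv2
  -- a small two part is central
  have hcentral : i = 1 → h.Two ≤ Subgroup.center A ∧ w ≠ 1 := by
    intro hi'
    rw [hi', pow_one] at hi
    have hlt : commutator A < h.Two := by
      refine lt_of_le_of_ne h.commutator_le_Two fun e => ?_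
      rw [← e] at hi
      have := Nat.eq_of_mul_eq_mul_left Nat.card_pos ((mul_one (Nat.card (commutator A))).trans hi)
      omega
    obtain ⟨u, hu, hu'⟩ := SetLike.exists_of_lt hlt
    have hle : h.orbSub u ≤ h.Two := by
      refine sup_le ((Subgroup.closure_le _).2 ?_) h.commutator_le_Two
      rintro _ ⟨d, rfl⟩
      exact h.inv_Two d u hu
    obtain ⟨j, hj⟩ := h.two_ratio (h.inv_orbSub u) (h.commutator_le_orbSub u) hle
    have heq : h.orbSub u = h.Two := by
      refine Subgroup.eq_of_le_of_card_ge hle ?_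
      rw [hi, hj]
      rcases j with _ | j
      · refine absurd ?_ hu'
        have : commutator A = h.orbSub u := Subgroup.eq_of_le_of_card_ge (h.commutator_le_orbSub u) (by rw [hj, pow_zero, mul_one])
        rw [this]; exact h.mem_orbSub u
      · exact Nat.mul_le_mul_left _ (Nat.le_self_pow (by omega) _)
    have hTc : ∀ a ∈ h.Two, ∀ b ∈ h.Two, Commute a b := heq ▸ h.orbSub_comm u
    refine ⟨fun b hb => Subgroup.mem_center_iff.2 fun y => ?_, fun hw1 => hna fun a b => ?_⟩
    · obtain ⟨e, hbe⟩ := h.mem_Two.1 hb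
      have h1 : orderOf ⁅y, b⁆ ∣ 2 ^ e := orderOf_dvd_of_pow_eq_one (by
        rw [← commutatorElement_inv b y, inv_pow, ← h.br_apply, ← map_pow, h.br_apply,
          h.br_central (hCC hbe) y, inv_one])
      have h2 : orderOf ⁅y, b⁆ ∣ w := orderOf_dvd_of_pow_eq_one (by
        rw [← h.br_apply, ← map_pow, h.br_apply]
        refine commutatorElement_eq_one_iff_commute.2 (hTc _ ?_ b hb)
        rw [hw]; exact Subgroup.pow_index_mem h.Two y)
      exact commutatorElement_eq_one_iff_mul_comm.1 (orderOf_eq_one_iff.1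
        (Nat.eq_one_of_dvd_coprimes ((Nat.coprime_two_left.2 hwodd).pow_left e) h1 h2))
    · rw [hw, Subgroup.index_eq_one] at hw1
      exact hTc a (hw1 ▸ trivial) b (hw1 ▸ trivial)
  refine ⟨hzv, ?_, hv2, ?_⟩
  · rw [hprod]
    rcases Nat.lt_or_ge i 2 with hlt | hge
    · obtain rfl : i = 1 := by omega
      have := (hcentral rfl).2
      have : mm A + 1 ≤ w := by omega
      rw [sq, pow_one]; exact Nat.mul_le_mul_left _ this
    · calc (mm A + 1) ^ 2 ≤ (mm A + 1) ^ i := Nat.pow_le_pow_right (by omega) hge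
        _ ≤ _ := Nat.le_mul_of_pos_right _ hwodd.pos
  intro n k hn hk
  obtain ⟨M, hM⟩ : ∃ M, M = mm A := ⟨_, rfl⟩
  rw [← hM] at hprod hwlarge hn h3 ⊢
  rcases Nat.lt_or_ge i 2 with hlt | hge
  · obtain rfl : i = 1 := by omega
    left
    obtain ⟨hle, hw1⟩ := hcentral rfl
    have hkw : k ^ 2 ≤ w := hk.trans (hw ▸ Nat.le_of_dvd (Nat.pos_of_ne_zero Subgroup.index_ne_zero_of_finite)
      (Subgroup.index_dvd_of_le hle))
    have hw7 : 2 * M + 1 ≤ w := hwlarge.resolve_left hw1
    rw [pow_one] at hprod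
    have hnw : w + 1 ≤ n := by nlinarith
    by_contra hcon
    have : w + 1 < 2 * k + 2 := by omega
    rcases Nat.lt_or_ge k 3 with hk3 | hk3 <;> nlinarith
  · by_cases hspec : i = 2 ∧ w = 1
    · right
      obtain ⟨rfl, rfl⟩ := hspec
      refine ⟨by rw [hprod, mul_one], ?_⟩
      refine IsPGroup.iff_card.1 fun a => ?_
      have htop := Subgroup.index_eq_one.1 hw.symm
      obtain ⟨j, hj⟩ := h.mem_Two.1 (show a ∈ h.Two from htop ▸ trivial)
      let P : Subgroup A :=
        { carrier := {c | c ∈ Subgroup.center A ∧ ∃ l, c ^ 2 ^ l = 1}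
          one_mem' := ⟨one_mem _, 0, one_pow _⟩
          mul_mem' := by
            rintro a b ⟨ha, l, hl⟩ ⟨hb, l', hl'⟩
            refine ⟨mul_mem ha hb, l + l', ?_⟩
            rw [(show Commute a b from Subgroup.mem_center_iff.1 hb a).mul_pow, pow_add, pow_mul, hl, one_pow,
              one_mul, mul_comm, pow_mul, hl', one_pow]
          inv_mem' := by
            rintro a ⟨ha, l, hl⟩
            exact ⟨inv_mem ha, l, by rw [inv_pow, hl, inv_one]⟩ }
      have hle : commutator A ≤ P := by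
        rw [commutator_def, Subgroup.commutator_le]
        intro x _ y _
        obtain ⟨l, hl⟩ := h.mem_Two.1 (show x ∈ h.Two from htop ▸ trivial)
        exact ⟨h.comm_mem_center x y, l, by rw [← h.br_apply, ← map_pow, h.br_apply, h.br_central (hCC hl)]⟩
      obtain ⟨-, l, hl⟩ := hle hj
      exact ⟨j + l, by rw [pow_add, pow_mul, hl]⟩
    · left
      have hbig : (2 * M + 1) ^ 2 ≤ (M + 1) ^ i * w := by
        rcases Nat.lt_or_ge i 3 with h2 | h2
        · obtain rfl : i = 2 := by omega
          have hw7 : 2 * M + 1 ≤ w := hwlarge.resolve_left fun e => hspec ⟨rfl, e⟩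
          nlinarith
        · have h4 := Nat.pow_le_pow_right (show 0 < M + 1 by omega) h2
          have h5 : 1 ≤ w := hwodd.pos
          nlinarith [Nat.mul_le_mul h3 (Nat.mul_le_mul h3 (le_refl M))]
      rw [← hprod, ← hn] at hbig
      by_contra hcon
      have hkv : k ^ 2 ≤ n * M + 1 := hn ▸ hk.trans hzv
      have hn2 : n * M ≤ (2 * k + 1) * M := Nat.mul_le_mul_right _ (by omega)
      rcases Nat.lt_or_ge k (2 * M + 1) with hk2 | hk2
      · have := Nat.mul_le_mul_right M (show 2 * k + 1 ≤ 4 * M + 1 by omega)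
        nlinarith
      · nlinarith

/-- The exceptional case: order `q ^ 3`, with commutator subgroup, centre and involutions of order `q`. -/
theorem special (hna : ¬ ∀ a b : A, Commute a b) (hv : Nat.card (Abelianization A) = (mm A + 1) ^ 2)
    (hA : ∃ j, Nat.card A = 2 ^ j) (hzi : (mm A + 1) ^ 2 ≤ (Subgroup.center A).index) :
    Nat.card (Subgroup.center A) = mm A + 1 ∧ Nat.card A = (mm A + 1) ^ 3 ∧
      (∀ a ∈ Subgroup.center A, a ^ 2 = 1) ∧ (∀ a : A, a ^ 2 ∈ Subgroup.center A) ∧
      Subgroup.center A = commutator A ∧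
      ∀ a : A, a ∉ Subgroup.center A → Nat.card (Subgroup.centralizer ({a} : Set A)) = (mm A + 1) ^ 2 := by
  haveI : Fact (Nat.Prime 2) := ⟨Nat.prime_two⟩
  obtain ⟨j, hj⟩ := hA
  have hAp : IsPGroup 2 A := IsPGroup.of_card hj
  have hTwo : h.Two = ⊤ := eq_top_iff.2 fun a _ => h.mem_Two.2 ((hAp a).imp fun e he => by rw [he]; exact one_mem _)
  have hCC := h.commutator_le_center
  have hZC : Subgroup.center A = commutator A := by
    refine (Subgroup.eq_of_le_of_card_ge hCC ?_).symm
    have e1 := Subgroup.card_mul_index (Subgroup.center A)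
    have e2 := Subgroup.card_mul_index (commutator A)
    change Nat.card (commutator A) * Nat.card (Abelianization A) = _ at e2
    rw [hv] at e2
    by_contra hlt
    have := Nat.mul_lt_mul_of_pos_right (not_le.1 hlt) (show 0 < (mm A + 1) ^ 2 by positivity)
    have := Nat.mul_le_mul_left (Nat.card (Subgroup.center A)) hzi
    omega
  obtain ⟨c, hc⟩ : ∃ c, c = Nat.card (commutator A) := ⟨_, rfl⟩
  have hcardA : Nat.card A = c * (mm A + 1) ^ 2 := by
    rw [hc, ← hv]; exact (Subgroup.card_mul_index (commutator A)).symm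
  -- proper invariant subgroups strictly above the commutators
  have hmid : ∀ X : Subgroup A, h.Inv X → commutator A < X → X ≠ ⊤ → Nat.card X = c * (mm A + 1) := by
    intro X hX hlt hne
    obtain ⟨i, hi⟩ := h.two_ratio hX hlt.le (hTwo ▸ le_top)
    rw [← hc] at hi
    have h1 : c < Nat.card X := by
      rw [hc]
      exact lt_of_le_of_ne (Subgroup.card_le_of_le hlt.le) fun e => hlt.ne (Subgroup.eq_of_le_of_card_ge hlt.le e.ge)
    have h2 : Nat.card X < Nat.card A := lt_of_le_of_ne (Subgroup.card_le_card_group X)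
      fun e => hne ((Subgroup.card_eq_iff_eq_top X).1 e)
    rcases i with _ | _ | i
    · rw [hi, pow_zero, mul_one] at h1; omega
    · rw [hi, zero_add, pow_one]
    · have := Nat.mul_le_mul_left c (Nat.pow_le_pow_right (show 0 < mm A + 1 by omega) (show 2 ≤ i + 1 + 1 by omega))
      rw [hi, hcardA] at h2
      omega
  have hltU : ∀ u : A, u ∉ commutator A → commutator A < h.orbSub u := fun u hu =>
    lt_of_le_of_ne (h.commutator_le_orbSub u) fun e => hu (e ▸ h.mem_orbSub u)
  have hneU : ∀ u : A, h.orbSub u ≠ ⊤ := fun u e => hna fun a b => h.orbSub_comm u a (e ▸ trivial) b (e ▸ trivial)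
  have hU : ∀ u : A, u ∉ commutator A → Nat.card (h.orbSub u) = c * (mm A + 1) := fun u hu =>
    hmid _ (h.inv_orbSub u) (hltU u hu) (hneU u)
  -- squares
  have hsq : ∀ u : A, u ^ 2 ∈ commutator A := by
    intro u
    by_contra hu2
    have hu : u ∉ commutator A := fun e => hu2 (Subgroup.pow_mem _ e 2)
    obtain ⟨e, he⟩ := h.mem_Two.1 (show u ∈ h.Two from hTwo ▸ trivial)
    classical
    have hex : ∃ e, u ^ 2 ^ e ∈ commutator A := ⟨e, he⟩
    obtain ⟨f, hf⟩ : ∃ f, f = Nat.find hex := ⟨_, rfl⟩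
    have hf1 : u ^ 2 ^ f ∈ commutator A := hf ▸ Nat.find_spec hex
    rcases f with _ | f
    · exact hu (by simpa using hf1)
    have hf2 : u ^ 2 ^ f ∉ commutator A := Nat.find_min hex (hf ▸ Nat.lt_succ_self f)
    have hxU : u ^ 2 ^ f ∈ h.orbSub u := Subgroup.pow_mem _ (h.mem_orbSub u) _
    have hxS : u ^ 2 ^ f ∈ h.sqLayer 2 := h.mem_sqLayer.2 (by rwa [← pow_mul, ← pow_succ])
    have hcS : commutator A ≤ h.sqLayer 2 := fun a ha => h.mem_sqLayer.2 (Subgroup.pow_mem _ ha 2)
    have h1 := hmid _ (h.inv_inf (h.inv_orbSub u) (h.inv_sqLayer 2))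
      (lt_of_le_of_ne (le_inf (h.commutator_le_orbSub u) hcS) fun e => hf2 (e ▸ ⟨hxU, hxS⟩))
      (fun e => hneU u (top_le_iff.1 (e.ge.trans inf_le_left)))
    have h2 := Subgroup.eq_of_le_of_card_ge (inf_le_left : h.orbSub u ⊓ h.sqLayer 2 ≤ h.orbSub u)
      (by rw [hU u hu, h1])
    exact hu2 (h.mem_sqLayer.1 ((h2.ge.trans inf_le_right) (h.mem_orbSub u)))
  -- the commutators form the image of one map
  obtain ⟨u, hu⟩ : ∃ u : A, u ∉ commutator A := by
    by_contra hcon
    push Not at hcon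
    exact hna fun a b => (Subgroup.mem_center_iff.1 (hCC (hcon a)) b).symm
  obtain ⟨v, hv'⟩ : ∃ v : A, v ∉ h.orbSub u := by
    by_contra hcon
    push Not at hcon
    exact hneU u (eq_top_iff.2 fun a _ => hcon a)
  have htop : h.orbSub u ⊔ h.orbSub v = ⊤ := by
    by_contra hne
    have h1 := hmid _ (h.inv_sup (h.inv_orbSub u) (h.inv_orbSub v))
      ((hltU u hu).trans_le le_sup_left) hne
    have h2 := Subgroup.eq_of_le_of_card_ge (le_sup_left : h.orbSub u ≤ _ ⊔ h.orbSub v) (by rw [hU u hu, h1])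
    exact hv' (h2 ▸ (le_sup_right : h.orbSub v ≤ _) (h.mem_orbSub v))
  obtain ⟨R, hR⟩ : ∃ R, R = (h.orbSub u).map (h.br v) := ⟨_, rfl⟩
  have hRc : ∀ a b : A, ⁅a, b⁆ ∈ R := by
    have huv : ∀ a ∈ h.orbSub u, ∀ b ∈ h.orbSub v, ⁅a, b⁆ ∈ R := by
      intro a ha b hb
      suffices hle : h.orbSub v ≤ R.comap (h.br a) by
        have := R.inv_mem (hle hb)
        rwa [h.br_apply, commutatorElement_inv] at this
      refine sup_le ((Subgroup.closure_le _).2 ?_) fun y hy => ?_
      · rintro _ ⟨d, rfl⟩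
        show h.br a (h.act d v) ∈ R
        rw [h.br_apply, ← commutatorElement_inv, ← h.act_swap, ← h.br_apply]
        exact R.inv_mem (hR ▸ Subgroup.mem_map_of_mem _ (h.inv_orbSub u d a ha))
      · show h.br a y ∈ R
        rw [h.br_apply, h.br_central (hCC hy)]
        exact one_mem _
    intro a b
    have key : ∀ b', (∀ a' ∈ h.orbSub u, ⁅a', b'⁆ ∈ R) → (∀ a' ∈ h.orbSub v, ⁅a', b'⁆ ∈ R) →
        ∀ a', ⁅a', b'⁆ ∈ R := fun b' h1 h2 a' => by
      have : (⊤ : Subgroup A) ≤ R.comap (h.br b') := htop ▸ sup_le h1 h2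
      exact this (show a' ∈ (⊤ : Subgroup A) from trivial)
    have hone : ∀ (t : A), ∀ a' ∈ h.orbSub t, ∀ b' ∈ h.orbSub t, ⁅a', b'⁆ ∈ R := fun t a' ha' b' hb' => by
      rw [commutatorElement_eq_one_iff_commute.2 (h.orbSub_comm t a' ha' b' hb')]; exact one_mem _
    have hvu : ∀ b' ∈ h.orbSub u, ∀ a' ∈ h.orbSub v, ⁅a', b'⁆ ∈ R := fun b' hb' a' ha' => by
      have := R.inv_mem (huv b' hb' a' ha'); rwa [commutatorElement_inv] at this
    have hu' : ∀ b' ∈ h.orbSub u, ∀ a', ⁅a', b'⁆ ∈ R := fun b' hb' =>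
      key b' (fun a' ha' => hone u a' ha' b' hb') (hvu b' hb')
    have hv'' : ∀ b' ∈ h.orbSub v, ∀ a', ⁅a', b'⁆ ∈ R := fun b' hb' =>
      key b' (fun a' ha' => huv a' ha' b' hb') (fun a' ha' => hone v a' ha' b' hb')
    have hb : (⊤ : Subgroup A) ≤ R.comap (h.br a) := htop ▸ sup_le
      (fun b' hb' => by
        show h.br a b' ∈ R
        rw [h.br_apply, ← commutatorElement_inv]; exact R.inv_mem (hu' b' hb' a))
      (fun b' hb' => by
        show h.br a b' ∈ R
        rw [h.br_apply, ← commutatorElement_inv]; exact R.inv_mem (hv'' b' hb' a))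
    have := R.inv_mem (hb (show b ∈ (⊤ : Subgroup A) from trivial))
    rwa [h.br_apply, commutatorElement_inv] at this
  have hcle : c ≤ mm A + 1 := by
    have h1 : commutator A ≤ R := by
      rw [commutator_def, Subgroup.commutator_le]; exact fun a _ b _ => hRc a b
    let f : h.orbSub u →* A := (h.br v).comp (h.orbSub u).subtype
    have hrange : f.range = R := by
      rw [hR, MonoidHom.range_comp, Subgroup.range_subtype]
    have hker : (commutator A).subgroupOf (h.orbSub u) ≤ f.ker := fun a ha =>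
      MonoidHom.mem_ker.2 (h.br_central (hCC ha) v)
    have h2 : c * c ≤ c * (mm A + 1) := by
      calc c * c ≤ Nat.card f.ker * Nat.card f.range := by
            refine Nat.mul_le_mul ?_ ?_
            · rw [hc, ← Nat.card_congr (Subgroup.subgroupOfEquivOfLe (h.commutator_le_orbSub u)).toEquiv]
              exact Subgroup.card_le_of_le hker
            · rw [hrange, hc]; exact Subgroup.card_le_of_le h1
        _ = Nat.card (h.orbSub u) := by
            rw [← Nat.card_congr (QuotientGroup.quotientKerEquivRange f).toEquiv, mul_comm,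
              ← Subgroup.card_eq_card_quotient_mul_card_subgroup]
        _ = c * (mm A + 1) := hU u hu
    exact Nat.le_of_mul_le_mul_left h2 (hc ▸ Nat.card_pos)
  have hOc : h.Omg ≤ commutator A := hZC ▸ h.Omg_le_center
  have hOeq : h.Omg = commutator A := Subgroup.eq_of_le_of_card_ge hOc (by rw [h.card_Omg, ← hc]; exact hcle)
  have hcq : c = mm A + 1 := by rw [hc, ← hOeq, h.card_Omg]
  refine ⟨by rw [hZC, ← hc, hcq], by rw [hcardA, hcq]; ring, fun a ha => ?_, fun a => hZC ▸ hsq a, hZC,
    fun a ha => ?_⟩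
  · exact (show a ∈ h.Omg from hOeq ▸ hZC ▸ ha)
  · rw [hmid (Subgroup.centralizer ({a} : Set A)) ?_ ?_ ?_, hcq, sq]
    · intro d b hb
      rw [Subgroup.mem_centralizer_singleton_iff] at hb ⊢
      exact (h.comm_act d hb).eq
    · refine lt_of_le_of_ne (fun b hb => Subgroup.mem_centralizer_singleton_iff.2
        (Subgroup.mem_center_iff.1 (hCC hb) a).symm) fun e => ha ?_
      rw [hZC, e]
      exact Subgroup.mem_centralizer_singleton_iff.2 rfl
    · exact fun e => ha (Subgroup.mem_center_iff.2 fun b =>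
        Subgroup.mem_centralizer_singleton_iff.1 (e ▸ trivial : b ∈ Subgroup.centralizer ({a} : Set A)))

end Hyp

end CfsgLib.TICent
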