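import Cfsg.Prelude.Def_Involutions
import Cfsg.Agent.Invol.StronglyEmbedded
import Cfsg.Agent.S1225
import Cfsg.Agent.CharBasics.Central
import Cfsg.Agent.CA.TICent.Algebra

/-!
# The local structure at a nilpotent TI subgroup with strongly embedded normaliser
-/

set_option autoImplicit false
set_option linter.style.haveILetI false
set_option linter.unusedSectionVars false

namespace CfsgLib.TICent

open scoped commutatorElement
open CfsgLib.Invol

universe u

variable {G : Type u} [Group G] [Finite G]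

/-- The normaliser. -/
abbrev NA (A : Subgroup G) : Subgroup G := Subgroup.normalizer (A : Set G)

/-- The index of `A` in its normaliser. -/
noncomputable abbrev mm (A : Subgroup G) : ℕ := (A.subgroupOf (NA A)).index

/-- The two-point stabiliser belonging to an involution outside the normaliser. -/
abbrev DD (A : Subgroup G) (w : G) : Subgroup G := NA A ⊓ (NA A).map (MulAut.conj w).toMonoidHom

/-- The configuration. -/
structure Hyp (A : Subgroup G) (z : G) : Prop where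
  hz : orderOf z = 2
  hzA : z ∈ A
  nil : Group.IsNilpotent ↥A
  lt : A < NA A
  ti : ∀ g a : G, a ∈ A → a ≠ 1 → g * a * g⁻¹ ∈ A → g ∈ NA A
  cent : ∀ a ∈ A, a ≠ 1 → Subgroup.centralizer ({a} : Set G) ≤ A
  se : Cfsg.IsStronglyEmbedded (NA A)
  zcent : ∀ t : G, orderOf t = 2 → t ∈ NA A → t ∈ A ∧ ∀ a ∈ A, Commute a t
  comm : ∀ a b d : G, a ∈ A → b ∈ A → d ∈ NA A → Commute a b → Commute (d * a * d⁻¹) b

namespace Hyp

variable {A : Subgroup G} {z : G} (h : Hyp A z)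
include h

theorem z_ne_one : z ≠ 1 := fun e => by
  have := h.hz; rw [e, orderOf_one] at this; omega

theorem eq_one_of_commute {a x : G} (ha : a ∈ A) (hx : x ∉ A) (hc : Commute a x) : a = 1 := by
  by_contra ha1
  exact hx (h.cent a ha ha1 (Subgroup.mem_centralizer_singleton_iff.2 hc.eq.symm))

theorem conj_mem {d a : G} (hd : d ∈ NA A) (ha : a ∈ A) : d * a * d⁻¹ ∈ A :=
  (Subgroup.mem_normalizer_iff.1 hd a).1 ha

theorem two_dvd : 2 ∣ Nat.card A := by
  rw [← h.hz, ← Subgroup.orderOf_mk z h.hzA]; exact orderOf_dvd_natCard _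

theorem centralizer_z : Subgroup.centralizer ({z} : Set G) = A :=
  le_antisymm (h.cent z h.hzA h.z_ne_one) fun _a ha => Subgroup.mem_centralizer_singleton_iff.2
    ((h.zcent z h.hz (Subgroup.le_normalizer h.hzA)).2 _a ha).eq

/-- Elements of the normaliser of prime order dividing `|A|` lie in `A`. -/
theorem mem_of_prime {x : G} {p : ℕ} (hp : p.Prime) (hx : x ∈ NA A) (hxo : orderOf x = p)
    (hpA : p ∣ Nat.card A) : x ∈ A := by
  by_contra hxA
  haveI := Fact.mk hp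
  let f : ↥(Subgroup.zpowers x) →* MulAut A :=
    A.normalizerMonoidHom.comp (Subgroup.inclusion ((Subgroup.zpowers_le).2 hx))
  letI := MulAction.compHom A f
  have hP : IsPGroup p ↥(Subgroup.zpowers x) := IsPGroup.of_card (n := 1) (by rw [Nat.card_zpowers, hxo, pow_one])
  have hmod := hP.card_modEq_card_fixedPoints A
  have hfix : MulAction.fixedPoints ↥(Subgroup.zpowers x) A = {1} := by
    ext a
    rw [MulAction.mem_fixedPoints, Set.mem_singleton_iff]
    constructor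
    · intro ha
      have h1 : x * a.1 * x⁻¹ = a.1 := congrArg Subtype.val (ha ⟨x, Subgroup.mem_zpowers x⟩)
      exact Subtype.ext (h.eq_one_of_commute a.2 hxA (mul_inv_eq_iff_eq_mul.1 h1).symm)
    · rintro rfl y
      exact map_one (f y)
  rw [hfix, Nat.card_coe_set_eq, Set.ncard_singleton] at hmod
  have h0 := (Nat.modEq_zero_iff_dvd.2 hpA).symm.trans hmod
  rw [Nat.ModEq, Nat.zero_mod, Nat.one_mod_eq_one.2 hp.ne_one] at h0
  exact zero_ne_one h0

/-- Outside `A`, the normaliser contains no conjugate of a nontrivial element of `A`. -/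
theorem not_conj {x g a : G} (hx : x ∈ NA A) (hxA : x ∉ A) (ha : a ∈ A) (ha1 : a ≠ 1) : g * a * g⁻¹ ≠ x := by
  intro e
  obtain ⟨p, hp, hpd⟩ := Nat.exists_prime_and_dvd (fun e1 : orderOf a = 1 => ha1 (orderOf_eq_one_iff.1 e1))
  obtain ⟨k, hk⟩ := hpd
  have hk0 : k ≠ 0 := fun h0 => (orderOf_pos a).ne' (by rw [hk, h0, mul_zero])
  have hbo : orderOf (a ^ k) = p := by
    rw [orderOf_pow_of_dvd hk0 ⟨p, by rw [hk, mul_comm]⟩, hk, Nat.mul_div_cancel _ (Nat.pos_of_ne_zero hk0)]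
  have hpA : p ∣ Nat.card A := by
    rw [← hbo, ← Subgroup.orderOf_mk (a ^ k) (pow_mem ha k)]; exact orderOf_dvd_natCard _
  have hxk : x ^ k = g * a ^ k * g⁻¹ := by rw [← e, conj_pow]
  have hxo : orderOf (x ^ k) = p := by rw [hxk, orderOf_conj]; exact hbo
  have hmem := h.mem_of_prime hp (pow_mem hx k) hxo hpA
  rw [hxk] at hmem
  have hg := h.ti g (a ^ k) (pow_mem ha k) (fun e1 => hp.ne_one (by rw [← hbo, e1, orderOf_one])) hmem
  exact hxA (e ▸ h.conj_mem hg ha)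

theorem ne_top : NA A ≠ ⊤ := h.se.1

theorem exists_outside : ∃ w : G, orderOf w = 2 ∧ w ∉ NA A := by
  by_contra hcon
  push Not at hcon
  refine h.ne_top (eq_top_iff.2 fun g _ => ?_)
  exact h.ti g z h.hzA h.z_ne_one (h.zcent _ ((orderOf_conj g z).trans h.hz)
    (hcon _ ((orderOf_conj g z).trans h.hz))).1

theorem isConj_iff {x : G} : IsConj z x ↔ orderOf x = 2 := by
  constructor
  · intro hx
    obtain ⟨g, rfl⟩ := _root_.isConj_iff.1 hx
    rw [orderOf_conj, h.hz]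
  · intro hx
    obtain ⟨w, hw, hwM⟩ := h.exists_outside
    exact (Cfsg.Agent.S1225.result _ h.se w hw hwM z z h.hz (Subgroup.le_normalizer h.hzA) h.hz
      (Subgroup.le_normalizer h.hzA)).2 z x h.hz hx

/-- The involutions of the normaliser are as many as the index of `A`. -/
theorem card_inv : Nat.card {t : G // orderOf t = 2 ∧ t ∈ NA A} = mm A := by
  obtain ⟨w, hw, hwM⟩ := h.exists_outside
  let z' : NA A := ⟨z, Subgroup.le_normalizer h.hzA⟩
  have hC : Subgroup.centralizer ({z'} : Set (NA A)) = A.subgroupOf (NA A) := by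
    ext x
    rw [Subgroup.mem_centralizer_singleton_iff, Subgroup.mem_subgroupOf,
      show ((x : G) ∈ A ↔ (x : G) ∈ Subgroup.centralizer ({z} : Set G)) by rw [h.centralizer_z],
      Subgroup.mem_centralizer_singleton_iff, Subtype.ext_iff]
    rfl
  rw [mm, ← hC, ← CharBasics.card_conjClass z']
  refine Nat.card_congr
    { toFun := fun t => ⟨⟨t.1, t.2.2⟩, ?_⟩
      invFun := fun x => ⟨x.1.1, ?_, x.1.2⟩
      left_inv := fun _ => rfl
      right_inv := fun _ => rfl }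
  · obtain ⟨⟨d, hd, hdt⟩, -⟩ := Cfsg.Agent.S1225.result _ h.se w hw hwM z t.1 h.hz
      (Subgroup.le_normalizer h.hzA) t.2.1 t.2.2
    exact _root_.isConj_iff.2 ⟨⟨d, hd.1⟩, Subtype.ext hdt⟩
  · obtain ⟨g, hg⟩ := _root_.isConj_iff.1 x.2
    rw [show x.1.1 = (g : G) * z * (g : G)⁻¹ from (congrArg Subtype.val hg).symm, orderOf_conj, h.hz]

theorem card_coset {g : G} (hg : g ∉ NA A) :
    Nat.card {w : G // orderOf w = 2 ∧ g⁻¹ * w ∈ NA A} = mm A :=
  (card_involutions_coset h.se hg).trans h.card_inv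

theorem mm_pos : 0 < mm A := Nat.pos_of_ne_zero Subgroup.index_ne_zero_of_finite

theorem one_lt_mm : 1 < mm A := by
  refine lt_of_le_of_ne h.mm_pos fun e => h.lt.not_ge ?_
  exact Subgroup.subgroupOf_eq_top.1 (Subgroup.index_eq_one.1 e.symm)

/-- Every coset other than the normaliser contains an involution. -/
theorem exists_inv_coset {g : G} (hg : g ∉ NA A) : ∃ v, orderOf v = 2 ∧ g⁻¹ * v ∈ NA A ∧ v ∉ NA A := by
  have : Nonempty {w : G // orderOf w = 2 ∧ g⁻¹ * w ∈ NA A} :=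
    (Nat.card_pos_iff.1 (by rw [h.card_coset hg]; exact h.mm_pos)).1
  obtain ⟨v, hv, hvg⟩ := this
  exact ⟨v, hv, hvg, fun hvM => hg (by simpa [mul_assoc] using (NA A).mul_mem hvM ((NA A).inv_mem hvg))⟩

theorem mem_DD {w d : G} (hw : orderOf w = 2) : d ∈ DD A w ↔ d ∈ NA A ∧ w * d * w ∈ NA A := by
  have hwi := inv_eq_of_orderOf hw
  refine and_congr_right fun _ => ⟨?_, fun hd => ⟨w * d * w, hd, ?_⟩⟩
  · rintro ⟨x, hx, rfl⟩
    show w * (w * x * w⁻¹) * w ∈ NA A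
    rwa [← mul_assoc, ← mul_assoc, mul_self_of_orderOf hw, one_mul, inv_mul_cancel_right]
  · show w * (w * d * w) * w⁻¹ = d
    rw [hwi, ← mul_assoc, ← mul_assoc, mul_self_of_orderOf hw, one_mul, mul_assoc, mul_self_of_orderOf hw, mul_one]

/-- `D ∩ A = 1`. -/
theorem DD_inf {w d : G} (hw : orderOf w = 2) (hwM : w ∉ NA A) (hd : d ∈ DD A w) (hdA : d ∈ A) : d = 1 := by
  by_contra hd1
  have h2 := ((h.mem_DD hw).1 hd).2
  have hne : w * d * w⁻¹ ≠ 1 := fun e => hd1 (by simpa using e)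
  rw [← inv_eq_of_orderOf hw, show w⁻¹ = w from inv_eq_of_orderOf hw] at h2
  have hwi := inv_eq_of_orderOf hw
  by_cases hA : w * d * w ∈ A
  · exact hwM (h.ti w d hdA hd1 (by rwa [hwi]))
  · exact h.not_conj h2 hA hdA hd1 (g := w) (by rw [hwi])

theorem card_mul_DD_le {w : G} (hw : orderOf w = 2) (hwM : w ∉ NA A) :
    Function.Injective (fun d : DD A w => ((⟨d.1, d.2.1⟩ : NA A) : NA A ⧸ A.subgroupOf (NA A))) := by
  intro d e hde
  have h1 := QuotientGroup.eq.1 hde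
  rw [Subgroup.mem_subgroupOf] at h1
  exact Subtype.ext (inv_mul_eq_one.1 (h.DD_inf hw hwM ((DD A w).mul_mem ((DD A w).inv_mem d.2) e.2) h1))

/-- `|D| = [M : A]`, and `w` inverts `D`. -/
theorem DD_spec {w : G} (hw : orderOf w = 2) (hwM : w ∉ NA A) :
    Nat.card (DD A w) = mm A ∧ ∀ d ∈ DD A w, w * d * w = d⁻¹ := by
  have hww := mul_self_of_orderOf hw
  have hwi := inv_eq_of_orderOf hw
  have mem : ∀ v : G, orderOf v = 2 → w⁻¹ * v ∈ NA A → w * v ∈ DD A w := by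
    intro v hv hv2
    rw [hwi] at hv2
    refine (h.mem_DD hw).2 ⟨hv2, ?_⟩
    rw [show w * (w * v) * w = (w * v)⁻¹ by
      rw [mul_inv_rev, inv_eq_of_orderOf hv, hwi, ← mul_assoc w w, hww, one_mul]]
    exact (NA A).inv_mem hv2
  let f : {v : G // orderOf v = 2 ∧ w⁻¹ * v ∈ NA A} → DD A w := fun v => ⟨w * v.1, mem v.1 v.2.1 v.2.2⟩
  have hf : Function.Injective f := fun a b e => Subtype.ext (mul_left_cancel (congrArg Subtype.val e))
  have h1 : mm A ≤ Nat.card (DD A w) := by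
    rw [← h.card_coset hwM]; exact Nat.card_le_card_of_injective f hf
  have h2 : Nat.card (DD A w) ≤ mm A := Nat.card_le_card_of_injective _ (h.card_mul_DD_le hw hwM)
  have hfb := (Nat.bijective_iff_injective_and_card f).2 ⟨hf, by rw [h.card_coset hwM]; omega⟩
  refine ⟨by omega, fun d hd => ?_⟩
  obtain ⟨⟨v, hv, hvM⟩, hvd⟩ := hfb.2 ⟨d, hd⟩
  have e : w * v = d := congrArg Subtype.val hvd
  subst e
  rw [mul_inv_rev, inv_eq_of_orderOf hv, hwi, ← mul_assoc w w, hww, one_mul]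

theorem odd_mm : Odd (mm A) := by
  obtain ⟨w, hw, hwM⟩ := h.exists_outside
  rw [← (h.DD_spec hw hwM).1]
  exact h.se.2.2 w hwM

theorem three_le_mm : 3 ≤ mm A := by
  have := h.one_lt_mm
  obtain ⟨k, hk⟩ := h.odd_mm
  omega

/-- `M = D A`. -/
theorem exists_decomp {w : G} (hw : orderOf w = 2) (hwM : w ∉ NA A) {x : G} (hx : x ∈ NA A) :
    ∃ d ∈ DD A w, d⁻¹ * x ∈ A := by
  have hb := (Nat.bijective_iff_injective_and_card _).2 ⟨h.card_mul_DD_le hw hwM, (h.DD_spec hw hwM).1⟩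
  obtain ⟨d, hd⟩ := hb.2 ((⟨x, hx⟩ : NA A) : NA A ⧸ A.subgroupOf (NA A))
  exact ⟨d, d.2, Subgroup.mem_subgroupOf.1 (QuotientGroup.eq.1 hd)⟩

theorem DD_comm {w : G} (hw : orderOf w = 2) (hwM : w ∉ NA A) {d e : G} (hd : d ∈ DD A w) (he : e ∈ DD A w) :
    Commute d e := by
  have hww := mul_self_of_orderOf hw
  have h1 := (h.DD_spec hw hwM).2
  have h2 := h1 _ ((DD A w).mul_mem hd he)
  rw [show w * (d * e) * w = (w * d * w) * (w * e * w) by
    rw [mul_assoc (w * d) w, ← mul_assoc w (w * e) w, ← mul_assoc w w e, hww, one_mul]; group,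
    h1 d hd, h1 e he, mul_inv_rev] at h2
  exact (Commute.inv_inv_iff).1 h2

/-- `M / A` is commutative. -/
theorem commutator_mem {x y : G} (hx : x ∈ NA A) (hy : y ∈ NA A) : ⁅x, y⁆ ∈ A := by
  obtain ⟨w, hw, hwM⟩ := h.exists_outside
  obtain ⟨d, hd, hdx⟩ := h.exists_decomp hw hwM hx
  obtain ⟨e, he, hey⟩ := h.exists_decomp hw hwM hy
  let π := QuotientGroup.mk' (A.subgroupOf (NA A))
  have e1 : ∀ (u v : NA A), (u : G)⁻¹ * v ∈ A → π u = π v := fun u v huv =>
    QuotientGroup.eq.2 (Subgroup.mem_subgroupOf.2 huv)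
  have hc : π ⁅(⟨x, hx⟩ : NA A), (⟨y, hy⟩ : NA A)⁆ = 1 := by
    rw [map_commutatorElement, ← e1 ⟨d, hd.1⟩ ⟨x, hx⟩ hdx, ← e1 ⟨e, he.1⟩ ⟨y, hy⟩ hey, ← map_commutatorElement]
    rw [show ⁅(⟨d, hd.1⟩ : NA A), (⟨e, he.1⟩ : NA A)⁆ = 1 from
      Subtype.ext (commutatorElement_eq_one_iff_commute.2 (h.DD_comm hw hwM hd he)), map_one]
  exact Subgroup.mem_subgroupOf.1 ((QuotientGroup.eq_one_iff _).1 hc)

theorem DD_fpf {w j a : G} (hw : orderOf w = 2) (hwM : w ∉ NA A) (hj : j ∈ DD A w) (hj1 : j ≠ 1) (ha : a ∈ A)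
    (hc : Commute a j) : a = 1 :=
  h.eq_one_of_commute ha (fun hjA => hj1 (h.DD_inf hw hwM hj hjA)) hc

/-- The centraliser of a nontrivial element of `D` lies in the normaliser. -/
theorem mem_of_commute {w j g : G} (hw : orderOf w = 2) (hwM : w ∉ NA A) (hj : j ∈ DD A w) (hj1 : j ≠ 1)
    (hc : Commute g j) : g ∈ NA A := by
  by_contra hg
  obtain ⟨v, hv, hvg, hvM⟩ := h.exists_inv_coset hg
  obtain ⟨μ, hμ, rfl⟩ : ∃ μ ∈ NA A, g * μ = v := ⟨g⁻¹ * v, hvg, by group⟩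
  have hvi := inv_eq_of_orderOf hv
  have e1 : (g * μ) * j * (g * μ) = μ⁻¹ * j * μ := by
    calc (g * μ) * j * (g * μ) = (g * μ)⁻¹ * j * (g * μ) := by rw [hvi]
      _ = μ⁻¹ * (g⁻¹ * j * g) * μ := by group
      _ = _ := by rw [mul_assoc g⁻¹, ← hc.eq, inv_mul_cancel_left]
  have hjv : j ∈ DD A (g * μ) := (h.mem_DD hv).2 ⟨hj.1, by
    rw [e1]; exact (NA A).mul_mem ((NA A).mul_mem ((NA A).inv_mem hμ) hj.1) hμ⟩
  have e2 := (h.DD_spec hv hvM).2 j hjv
  rw [e1] at e2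
  have h3 := h.commutator_mem ((NA A).inv_mem hμ) hj.1
  rw [commutatorElement_def, inv_inv, e2] at h3
  have h4 := h.DD_inf hw hwM ((DD A w).mul_mem ((DD A w).inv_mem hj) ((DD A w).inv_mem hj)) h3
  have hodd : Odd (orderOf j) := by
    refine Odd.of_dvd_nat h.odd_mm ?_
    rw [← (h.DD_spec hw hwM).1, ← Subgroup.orderOf_mk j hj]; exact orderOf_dvd_natCard _
  have h5 : orderOf j ∣ 2 := orderOf_dvd_of_pow_eq_one (by
    rw [sq]; rwa [← mul_inv_rev, inv_eq_one] at h4)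
  rcases (Nat.dvd_prime Nat.prime_two).1 h5 with h6 | h6
  · exact hj1 (orderOf_eq_one_iff.1 h6)
  · rw [h6] at hodd; exact absurd hodd (by decide)

/-- `G = M ∪ A w M`. -/
theorem cover {w g : G} (hw : orderOf w = 2) (hwM : w ∉ NA A) (hg : g ∉ NA A) :
    ∃ a ∈ A, (a * w)⁻¹ * g ∈ NA A := by
  obtain ⟨v, hv, hvg, hvM⟩ := h.exists_inv_coset hg
  have hwi := inv_eq_of_orderOf hw
  have hvi := inv_eq_of_orderOf hv
  haveI : Nontrivial (DD A w) := Finite.one_lt_card_iff_nontrivial.1 (by rw [(h.DD_spec hw hwM).1]; exact h.one_lt_mm)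
  obtain ⟨⟨j, hj⟩, hj1⟩ := exists_ne (1 : DD A w)
  replace hj1 : j ≠ 1 := fun e => hj1 (Subtype.ext e)
  obtain ⟨d, hd, hdj⟩ := h.exists_decomp hv hvM hj.1
  let f : A → A := fun a => ⟨j⁻¹ * a.1 * j * a.1⁻¹,
    A.mul_mem (by simpa using h.conj_mem ((NA A).inv_mem hj.1) a.2) (A.inv_mem a.2)⟩
  have hf : Function.Injective f := by
    intro a b e
    have e' : j⁻¹ * a.1 * j * a.1⁻¹ = j⁻¹ * b.1 * j * b.1⁻¹ := congrArg Subtype.val e
    have e'' : a.1 * j * a.1⁻¹ = b.1 * j * b.1⁻¹ := by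
      simpa [mul_assoc] using congrArg (fun y => j * y) e'
    have hc : Commute (b.1⁻¹ * a.1) j := by
      show b.1⁻¹ * a.1 * j = j * (b.1⁻¹ * a.1)
      calc b.1⁻¹ * a.1 * j = b.1⁻¹ * (a.1 * j * a.1⁻¹) * a.1 := by group
        _ = _ := by rw [e'']; group
    exact Subtype.ext (inv_mul_eq_one.1 (h.DD_fpf hw hwM hj hj1 (A.mul_mem (A.inv_mem b.2) a.2) hc)).symm
  obtain ⟨⟨a, ha⟩, hae⟩ := (Finite.injective_iff_surjective.1 hf) ⟨(d⁻¹ * j)⁻¹, A.inv_mem hdj⟩
  have hae' : j⁻¹ * a * j * a⁻¹ = (d⁻¹ * j)⁻¹ := congrArg Subtype.val hae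
  have hd' : d = a * j * a⁻¹ := by
    rw [mul_inv_rev, inv_inv] at hae'
    have := congrArg (fun y => j * y) hae'
    simpa [mul_assoc] using this.symm
  have hjj : (a⁻¹ * v * a) * j * (a⁻¹ * v * a) = j⁻¹ := by
    calc (a⁻¹ * v * a) * j * (a⁻¹ * v * a) = a⁻¹ * (v * (a * j * a⁻¹) * v) * a := by group
      _ = j⁻¹ := by rw [← hd', (h.DD_spec hv hvM).2 d hd, hd']; group
  have hc : Commute (w * (a⁻¹ * v * a)) j := by
    have hv' : (a⁻¹ * v * a)⁻¹ = a⁻¹ * v * a := by rw [mul_inv_rev, mul_inv_rev, inv_inv, hvi, mul_assoc]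
    have hwj : w * j⁻¹ = j * w := by
      have := (h.DD_spec hw hwM).2 j hj
      rw [← this, ← mul_assoc, ← mul_assoc, mul_self_of_orderOf hw, one_mul]
    show w * (a⁻¹ * v * a) * j = j * (w * (a⁻¹ * v * a))
    rw [mul_assoc w, ← mul_assoc j, ← hwj, mul_assoc w j⁻¹]
    congr 1
    rw [← hjj]
    generalize hu : a⁻¹ * v * a = v' at hv' ⊢
    calc v' * j = v' * j * (v' * v') := by rw [show v' * v' = 1 by nth_rw 1 [← hv']; exact inv_mul_cancel v', mul_one]
      _ = _ := by rw [← mul_assoc]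
  have hM := h.mem_of_commute hw hwM hj hj1 hc
  refine ⟨a, ha, ?_⟩
  have h1 := (NA A).mul_mem ((NA A).mul_mem hM ((NA A).inv_mem (Subgroup.le_normalizer ha))) ((NA A).inv_mem hvg)
  rwa [show w * (a⁻¹ * v * a) * a⁻¹ * (g⁻¹ * v)⁻¹ = w * a⁻¹ * g by group, show w * a⁻¹ = (a * w)⁻¹ by
    rw [mul_inv_rev, hwi]] at h1

/-- `[G : M] = |A| + 1`. -/
theorem index_eq : (NA A).index = Nat.card A + 1 := by
  obtain ⟨w, hw, hwM⟩ := h.exists_outside
  let f : Option A → G ⧸ NA A := fun o => o.elim ((1 : G) : G ⧸ NA A) fun a => ((a.1 * w : G) : G ⧸ NA A)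
  have hne : ∀ a : A, ((1 : G) : G ⧸ NA A) ≠ ((a.1 * w : G) : G ⧸ NA A) := fun a e => hwM (by
    have := QuotientGroup.eq.1 e
    rw [inv_one, one_mul] at this
    simpa using (NA A).mul_mem ((NA A).inv_mem (Subgroup.le_normalizer a.2)) this)
  have hf : Function.Bijective f := by
    constructor
    · rintro (_ | a) (_ | b) e
      · rfl
      · exact absurd e (hne b)
      · exact absurd e.symm (hne a)
      · refine congrArg some (Subtype.ext (inv_mul_eq_one.1 ?_))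
        refine h.DD_inf hw hwM ((h.mem_DD hw).2
          ⟨Subgroup.le_normalizer (A.mul_mem (A.inv_mem a.2) b.2), ?_⟩) (A.mul_mem (A.inv_mem a.2) b.2)
        have := QuotientGroup.eq.1 e
        rwa [mul_inv_rev, inv_eq_of_orderOf hw, show w * a.1⁻¹ * (b.1 * w) = w * (a.1⁻¹ * b.1) * w by group] at this
    · intro q
      obtain ⟨g, rfl⟩ := QuotientGroup.mk_surjective q
      by_cases hg : g ∈ NA A
      · exact ⟨none, QuotientGroup.eq.2 (by rw [inv_one, one_mul]; exact hg)⟩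
      · obtain ⟨a, ha, hag⟩ := h.cover hw hwM hg
        exact ⟨some ⟨a, ha⟩, QuotientGroup.eq.2 hag⟩
  rw [Subgroup.index, ← Nat.card_eq_of_bijective f hf, Finite.card_option]

theorem card_NA : Nat.card (NA A) = Nat.card A * mm A := by
  rw [← Subgroup.card_mul_index (A.subgroupOf (NA A)),
    Nat.card_congr (Subgroup.subgroupOfEquivOfLe Subgroup.le_normalizer).toEquiv]

theorem card_G : Nat.card G = (Nat.card A + 1) * (Nat.card A * mm A) := by
  rw [← Subgroup.card_mul_index (NA A), h.index_eq, h.card_NA, mul_comm]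

/-- The elements of the normaliser moved into it by `g`. -/
theorem card_inter {g : G} (hg : g ∉ NA A) :
    Nat.card {x : NA A // g⁻¹ * (x : G) * g ∈ NA A} = mm A := by
  obtain ⟨v, hv, hvg, hvM⟩ := h.exists_inv_coset hg
  rw [← (h.DD_spec hv hvM).1]
  have hvi := inv_eq_of_orderOf hv
  have key : ∀ x : G, g⁻¹ * x * g ∈ NA A ↔ v * x * v ∈ NA A := by
    intro x
    have e : v * x * v = (g⁻¹ * v)⁻¹ * (g⁻¹ * x * g) * (g⁻¹ * v) := by
      rw [mul_inv_rev, inv_inv, hvi]; group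
    rw [e]
    refine ⟨fun hx => (NA A).mul_mem ((NA A).mul_mem ((NA A).inv_mem hvg) hx) hvg, fun hx => ?_⟩
    simpa [mul_assoc] using (NA A).mul_mem ((NA A).mul_mem hvg hx) ((NA A).inv_mem hvg)
  exact Nat.card_congr
    { toFun := fun x => ⟨x.1.1, (h.mem_DD hv).2 ⟨x.1.2, (key _).1 x.2⟩⟩
      invFun := fun d => ⟨⟨d.1, d.2.1⟩, (key _).2 ((h.mem_DD hv).1 d.2).2⟩
      left_inv := fun _ => rfl
      right_inv := fun _ => rfl }

/-- An element is of odd order or conjugate into `A`. -/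
theorem odd_or_conj (x : G) : Odd (orderOf x) ∨ ∃ g : G, g⁻¹ * x * g ∈ A := by
  refine (Nat.even_or_odd (orderOf x)).symm.imp_right fun he => ?_
  obtain ⟨t, htx, hto⟩ := exists_involution_of_even (K := Subgroup.zpowers x) (by rwa [Nat.card_zpowers])
  obtain ⟨g, hg⟩ := _root_.isConj_iff.1 (h.isConj_iff.2 hto)
  refine ⟨g, ?_⟩
  rw [← h.centralizer_z, Subgroup.mem_centralizer_singleton_iff]
  obtain ⟨k, rfl⟩ := Subgroup.mem_zpowers_iff.1 htx
  have hc : x * (g * z * g⁻¹) = g * z * g⁻¹ * x := by rw [hg]; exact (Commute.self_zpow x k).eq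
  calc g⁻¹ * x * g * z = g⁻¹ * (x * (g * z * g⁻¹)) * g := by group
    _ = _ := by rw [hc]; group

/-- An invariant subgroup of `A` has order `≡ 1` modulo `m`. -/
theorem mm_dvd {X : Subgroup G} (hX : X ≤ A) (hinv : ∀ d ∈ NA A, ∀ x ∈ X, d * x * d⁻¹ ∈ X) :
    mm A ∣ Nat.card X - 1 := by
  obtain ⟨w, hw, hwM⟩ := h.exists_outside
  letI : MulAction (DD A w) {x : X // x ≠ 1} :=
    { smul := fun d x => ⟨⟨d.1 * x.1.1 * d.1⁻¹, hinv _ d.2.1 _ x.1.2⟩, fun e => x.2 (Subtype.ext (by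
        have e' : d.1 * x.1.1 * d.1⁻¹ = 1 := congrArg Subtype.val e
        simpa using e'))⟩
      one_smul := fun x => Subtype.ext (Subtype.ext (by
        show (1 : G) * x.1.1 * (1 : G)⁻¹ = x.1.1
        group))
      mul_smul := fun d e x => Subtype.ext (Subtype.ext (by
        show d.1 * e.1 * x.1.1 * (d.1 * e.1)⁻¹ = d.1 * (e.1 * x.1.1 * e.1⁻¹) * d.1⁻¹
        group)) }
  have hfree : ∀ x : {x : X // x ≠ 1}, MulAction.stabilizer (DD A w) x = ⊥ := by
    intro x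
    rw [eq_bot_iff]
    intro d hd
    rw [Subgroup.mem_bot]
    by_contra hd1
    have e : d.1 * x.1.1 * d.1⁻¹ = x.1.1 := congrArg (fun y : {x : X // x ≠ 1} => y.1.1) (MulAction.mem_stabilizer_iff.1 hd)
    exact x.2 (Subtype.ext (h.DD_fpf hw hwM d.2 (fun e1 => hd1 (Subtype.ext e1)) (hX x.1.2)
      (mul_inv_eq_iff_eq_mul.1 e).symm))
  have e := Nat.card_congr (MulAction.selfEquivOrbitsQuotientProd hfree)
  rw [Nat.card_prod, (h.DD_spec hw hwM).1] at e
  have e2 : Nat.card {x : X // x ≠ 1} = Nat.card X - 1 := by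
    classical
    haveI := Fintype.ofFinite X
    rw [Nat.card_eq_fintype_card, Nat.card_eq_fintype_card, Fintype.card_subtype_compl, Fintype.card_subtype_eq]
  exact Dvd.intro_left _ (e2 ▸ e).symm

/-- `A` has class two. -/
theorem class_le_two {a b : G} (ha : a ∈ A) (hb : b ∈ A) : ∀ c ∈ A, Commute c ⁅a, b⁆ := by
  obtain ⟨w, hw, hwM⟩ := h.exists_outside
  haveI : Nontrivial (DD A w) := Finite.one_lt_card_iff_nontrivial.1 (by rw [(h.DD_spec hw hwM).1]; exact h.one_lt_mm)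
  obtain ⟨⟨j, hj⟩, hj1⟩ := exists_ne (1 : DD A w)
  replace hj1 : j ≠ 1 := fun e => hj1 (Subtype.ext e)
  let φ : A ≃* A := A.normalizerMonoidHom ⟨j, hj.1⟩
  have hs : Function.Surjective fun x : A => x⁻¹ * φ x := by
    refine Finite.injective_iff_surjective.1 fun x y e => ?_
    have e' : x⁻¹ * φ x = y⁻¹ * φ y := e
    have e'' : φ (x * y⁻¹) = x * y⁻¹ := by
      rw [map_mul, map_inv, ← mul_inv_cancel_left x (φ x), e']; group
    have e3 : j * ((x * y⁻¹ : A) : G) * j⁻¹ = ((x * y⁻¹ : A) : G) := congrArg Subtype.val e''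
    have := h.DD_fpf hw hwM hj hj1 (x * y⁻¹).2 (mul_inv_eq_iff_eq_mul.1 e3).symm
    exact mul_inv_eq_one.1 (Subtype.ext this)
  have hc2 := class_two _ rfl h.nil φ
    (fun x => Subtype.ext (h.comm x x j x.2 x.2 hj.1 (Commute.refl _)).symm.eq)
    (fun a b => Subtype.ext (h.comm a a b a.2 a.2 (Subgroup.le_normalizer b.2) (Commute.refl _)).eq) hs
    ⟨a, ha⟩ ⟨b, hb⟩
  intro c hc
  exact congrArg Subtype.val (Subgroup.mem_center_iff.1 hc2 ⟨c, hc⟩)

end Hyp

end CfsgLib.TICent
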